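import Cfsg.Agent.CsPSL.Basic

/-!
Groups in which the centraliser of every `p`-element is a Sylow `p`-subgroup.
-/

set_option autoImplicit false

namespace Cfsg.Agent.CsPSL

open Subgroup
open scoped Classical

/-- All centralisers of order divisible by `p` are Sylow `p`-subgroups. -/
structure UHyp (X : Type*) [Group X] (p q M : ℕ) : Prop where
  prime : p.Prime
  card : Nat.card X = q * M
  qpow : ∃ i, 0 < i ∧ q = p ^ i
  notdvd : ¬ p ∣ M
  ordU : ∀ g : X, g ≠ 1 → p ∣ ord g → ord g = q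

namespace UHyp

variable {X : Type*} [Group X] [Finite X] {p q M : ℕ} (h : UHyp X p q M)
include h

omit [Finite X] in
theorem one_lt_q : 1 < q := by
  obtain ⟨i, hi, rfl⟩ := h.qpow
  exact Nat.one_lt_pow hi.ne' h.prime.one_lt

omit [Finite X] in
theorem dvd_q : p ∣ q := by
  obtain ⟨i, hi, rfl⟩ := h.qpow
  exact dvd_pow_self p hi.ne'

omit [Finite X] in
theorem coprime_q_M : Nat.Coprime q M := by
  obtain ⟨i, -, rfl⟩ := h.qpow
  exact (h.prime.coprime_iff_not_dvd.2 h.notdvd).pow_left i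

theorem card_sylow_eq (P : Sylow p X) : Nat.card ↥(P : Subgroup X) = q := by
  haveI : Fact p.Prime := ⟨h.prime⟩
  obtain ⟨i, -, hq⟩ := h.qpow
  have hc := h.card
  have hM : M ≠ 0 := by
    rintro rfl
    exact h.notdvd (dvd_zero p)
  rw [P.card_eq_multiplicity, hc, Nat.factorization_mul (by have := h.one_lt_q; omega) hM,
    Finsupp.add_apply, hq, Nat.Prime.factorization_pow h.prime]
  simp [Nat.factorization_eq_zero_of_not_dvd h.notdvd]

theorem ord_of_isP {y : X} (hy : y ≠ 1) (hk : ∃ k, orderOf y = p ^ k) : ord y = q := by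
  refine h.ordU y hy (Dvd.dvd.trans ?_ (orderOf_dvd_ord y))
  obtain ⟨k, hk⟩ := hk
  rcases k with _ | k
  · exact absurd (orderOf_eq_one_iff.1 (by simpa using hk)) hy
  · rw [hk]; exact dvd_pow_self p (Nat.succ_ne_zero k)

theorem isPGroup_cent {y : X} (hy : ord y = q) : IsPGroup p ↥(cent y) := by
  obtain ⟨i, -, hq⟩ := h.qpow
  exact IsPGroup.of_card (n := i) (by rw [← hq]; exact hy)

/-- The centraliser of an element with centraliser order `q` is a Sylow subgroup. -/
theorem exists_sylow_eq_cent {y : X} (hy : ord y = q) : ∃ P : Sylow p X, (P : Subgroup X) = cent y := by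
  haveI : Fact p.Prime := ⟨h.prime⟩
  obtain ⟨P, hP⟩ := (h.isPGroup_cent hy).exists_le_sylow
  exact ⟨P, (eq_of_le_of_card_ge hP (by rw [h.card_sylow_eq P]; exact hy.ge)).symm⟩

theorem cent_eq_of_le {P : Sylow p X} {y : X} (hy : y ≠ 1) (hyP : y ∈ (P : Subgroup X))
    (hle : (P : Subgroup X) ≤ cent y) : cent y = P := by
  haveI : Fact p.Prime := ⟨h.prime⟩
  obtain ⟨i, hi⟩ := IsPGroup.iff_orderOf.1 P.2 ⟨y, hyP⟩
  rw [Subgroup.orderOf_mk] at hi
  exact (eq_of_le_of_card_ge hle (by rw [h.card_sylow_eq P]; exact (h.ord_of_isP hy ⟨i, hi⟩).le)).symm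

theorem exists_pow_orderOf {P : Sylow p X} {y : X} (hyP : y ∈ (P : Subgroup X)) :
    ∃ k, orderOf y = p ^ k := by
  haveI : Fact p.Prime := ⟨h.prime⟩
  obtain ⟨i, hi⟩ := IsPGroup.iff_orderOf.1 P.2 ⟨y, hyP⟩
  rw [Subgroup.orderOf_mk] at hi
  exact ⟨i, hi⟩

theorem ord_of_mem {P : Sylow p X} {y : X} (hy : y ≠ 1) (hyP : y ∈ (P : Subgroup X)) : ord y = q :=
  h.ord_of_isP hy (h.exists_pow_orderOf hyP)

/-- The elements with centraliser of order `q`. -/
def U (q : ℕ) (X : Type*) [Group X] : Set X := {y | y ≠ 1 ∧ ord y = q}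

theorem index_of_U {y : X} (hy : ord y = q) : (cent y).index = M := by
  have := ord_mul_index y
  rw [hy, h.card] at this
  exact Nat.eq_of_mul_eq_mul_left (by have := h.one_lt_q; omega) this

theorem card_U : ∃ kU, (U q X).ncard = M * kU := by
  refine dvd_ncard_of_conj_invariant (U q X) ?_ fun y hy => (h.index_of_U hy.2).symm.dvd
  rintro y ⟨hy1, hy2⟩ x
  exact ⟨fun e => hy1 (conj_eq_one_iff.1 e), by rw [ord_conj]; exact hy2⟩

/-- The class equation modulo `q`. -/
theorem dvd_card_U_add_one : q ∣ (U q X).ncard + 1 := by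
  set s : Set X := {y | y ≠ 1 ∧ ord y ≠ q} with hs
  have h1 : q ∣ s.ncard := by
    refine dvd_ncard_of_conj_invariant s ?_ ?_
    · rintro y ⟨hy1, hy2⟩ x
      exact ⟨fun e => hy1 (conj_eq_one_iff.1 e), by rw [ord_conj]; exact hy2⟩
    · rintro y ⟨hy1, hy2⟩
      obtain ⟨i, -, hq⟩ := h.qpow
      have hco : Nat.Coprime q (ord y) := hq ▸ Nat.Coprime.pow_left i
        (h.prime.coprime_iff_not_dvd.2 fun hd => hy2 (h.ordU y hy1 hd))
      refine hco.dvd_of_dvd_mul_left ?_
      rw [ord_mul_index, h.card]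
      exact dvd_mul_right _ _
  have hU : U q X ∪ s ∪ {1} = Set.univ := by
    ext y
    simp only [U, hs, Set.mem_union, Set.mem_setOf_eq, Set.mem_singleton_iff, Set.mem_univ, iff_true]
    by_cases hy : y = 1
    · exact Or.inr hy
    · by_cases hq : ord y = q
      · exact Or.inl (Or.inl ⟨hy, hq⟩)
      · exact Or.inl (Or.inr ⟨hy, hq⟩)
  have hd1 : Disjoint (U q X) s := Set.disjoint_left.2 fun y hy hy' => hy'.2 hy.2
  have hd2 : Disjoint (U q X ∪ s) ({1} : Set X) := by
    rw [Set.disjoint_singleton_right]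
    rintro (⟨h', -⟩ | ⟨h', -⟩) <;> exact h' rfl
  have hn := congrArg Set.ncard hU
  rw [Set.ncard_union_eq hd2, Set.ncard_union_eq hd1, Set.ncard_singleton, Set.ncard_univ, h.card]
    at hn
  have : q ∣ (U q X).ncard + 1 + s.ncard := ⟨M, by omega⟩
  exact (Nat.dvd_add_left h1).1 this

/-- The centre of a Sylow subgroup. -/
abbrev zSyl (P : Subgroup X) : Subgroup X := P ⊓ Subgroup.centralizer (P : Set X)

theorem cent_eq_of_mem_zSyl {P : Sylow p X} {y : X} (hy : y ∈ zSyl (P : Subgroup X)) (hy1 : y ≠ 1) :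
    cent y = P :=
  h.cent_eq_of_le hy1 hy.1 fun x hx => mem_cent.2 (Subgroup.mem_centralizer_iff.1 hy.2 x hx)

theorem card_zSyl_conj (P Q : Sylow p X) :
    Nat.card ↥(zSyl (P : Subgroup X)) = Nat.card ↥(zSyl (Q : Subgroup X)) := by
  haveI : Fact p.Prime := ⟨h.prime⟩
  obtain ⟨x, rfl⟩ := MulAction.exists_smul_eq X P Q
  have hmem : ∀ y, x * y * x⁻¹ ∈ ((x • P : Sylow p X) : Subgroup X) ↔ y ∈ (P : Subgroup X) := by
    intro y
    rw [Sylow.coe_subgroup_smul, Subgroup.mem_pointwise_smul_iff_inv_smul_mem, ← map_inv,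
      MulAut.smul_def, MulAut.conj_apply, inv_inv,
      show x⁻¹ * (x * y * x⁻¹) * x = y by group]
  have hmap : (zSyl (P : Subgroup X)).map (MulAut.conj x).toMonoidHom =
      zSyl ((x • P : Sylow p X) : Subgroup X) := by
    ext z
    obtain ⟨y, rfl⟩ := (MulAut.conj x).surjective z
    constructor
    · rintro ⟨y', hy', e⟩
      obtain rfl : y' = y := (MulAut.conj x).injective e
      refine ⟨(hmem y').2 hy'.1, ?_⟩
      intro a ha
      obtain ⟨b, rfl⟩ := (MulAut.conj x).surjective a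
      rw [← map_mul, ← map_mul, Subgroup.mem_centralizer_iff.1 hy'.2 b ((hmem b).1 ha)]
    · rintro ⟨h1, h2⟩
      refine ⟨y, ⟨(hmem y).1 h1, ?_⟩, rfl⟩
      intro b hb
      have := Subgroup.mem_centralizer_iff.1 h2 (MulAut.conj x b) ((hmem b).2 hb)
      rw [← map_mul, ← map_mul] at this
      exact (MulAut.conj x).injective this
  rw [← hmap, Subgroup.card_map_of_injective (MulEquiv.injective _)]

/-- The elements with centraliser of order `q` are the central elements of the Sylow subgroups. -/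
theorem ncard_U_eq (P : Sylow p X) :
    (U q X).ncard = Nat.card (Sylow p X) * (Nat.card ↥(zSyl (P : Subgroup X)) - 1) := by
  let t : Set (Subgroup X) := Set.range fun Q : Sylow p X => (Q : Subgroup X)
  have ht : t.ncard = Nat.card (Sylow p X) :=
    Set.ncard_range_of_injective fun Q Q' e => Sylow.ext e
  rw [← ht]
  refine ncard_eq_mul_of_fibers (U q X) t (fun y => cent y) _ ?_ ?_
  · rintro y ⟨-, hy⟩
    obtain ⟨Q, hQ⟩ := h.exists_sylow_eq_cent hy
    exact ⟨Q, hQ⟩
  · rintro _ ⟨Q, rfl⟩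
    have : {y ∈ U q X | cent y = (Q : Subgroup X)} =
        (zSyl (Q : Subgroup X) : Set X) \ {1} := by
      ext y
      constructor
      · rintro ⟨⟨hy1, -⟩, hy⟩
        refine ⟨⟨hy ▸ self_mem_cent y, fun a ha => ?_⟩, hy1⟩
        exact mem_cent.1 (hy.symm ▸ ha)
      · rintro ⟨hy, hy1⟩
        exact ⟨⟨hy1, h.ord_of_mem hy1 hy.1⟩, h.cent_eq_of_mem_zSyl hy hy1⟩
    rw [this, Set.ncard_sdiff_singleton_of_mem (one_mem _), ← Nat.card_coe_set_eq,
      h.card_zSyl_conj P Q]
    rfl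

theorem card_sylow_mul (P : Sylow p X) :
    ∃ e, Nat.card ↥(normalizer ((P : Subgroup X) : Set X)) = q * e ∧
      Nat.card (Sylow p X) * e = M := by
  haveI : Fact p.Prime := ⟨h.prime⟩
  obtain ⟨e, he⟩ : q ∣ Nat.card ↥(normalizer ((P : Subgroup X) : Set X)) :=
    h.card_sylow_eq P ▸ Subgroup.card_dvd_of_le Subgroup.le_normalizer
  refine ⟨e, he, ?_⟩
  have h1 := Subgroup.card_mul_index (normalizer ((P : Subgroup X) : Set X))
  have h2 : (normalizer ((P : Subgroup X) : Set X)).index = Nat.card (Sylow p X) :=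
    (Sylow.card_eq_index_normalizer P).symm
  rw [h2, he, h.card, mul_assoc] at h1
  rw [mul_comm, Nat.eq_of_mul_eq_mul_left (by have := h.one_lt_q; omega) h1]

/-- The basic relations: `kU * e = |Z(P)| - 1` and `q ∣ M * kU + 1`. -/
theorem relations (P : Sylow p X) : ∃ kU e, 0 < kU ∧ kU < q ∧ q ∣ M * kU + 1 ∧
    (U q X).ncard = M * kU ∧
    Nat.card ↥(normalizer ((P : Subgroup X) : Set X)) = q * e ∧ Nat.card (Sylow p X) * e = M ∧
    kU * e + 1 = Nat.card ↥(zSyl (P : Subgroup X)) ∧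
    Nat.card ↥(zSyl (P : Subgroup X)) ≤ q := by
  haveI : Fact p.Prime := ⟨h.prime⟩
  obtain ⟨kU, hkU⟩ := h.card_U
  obtain ⟨e, he1, he2⟩ := h.card_sylow_mul P
  have hz1 : 0 < Nat.card ↥(zSyl (P : Subgroup X)) := Nat.card_pos
  have hzq : Nat.card ↥(zSyl (P : Subgroup X)) ≤ q :=
    h.card_sylow_eq P ▸ Subgroup.card_le_of_le inf_le_left
  have hn0 : 0 < Nat.card (Sylow p X) := Nat.card_pos
  have heq : kU * e + 1 = Nat.card ↥(zSyl (P : Subgroup X)) := by
    have h1 := h.ncard_U_eq P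
    rw [hkU, ← he2, mul_assoc] at h1
    have := Nat.eq_of_mul_eq_mul_left hn0 h1
    rw [mul_comm] at this
    omega
  have hd := h.dvd_card_U_add_one
  rw [hkU] at hd
  have hkpos : 0 < kU := by
    by_contra hc
    obtain rfl : kU = 0 := by omega
    rw [mul_zero, zero_add, Nat.dvd_one] at hd
    have := h.one_lt_q
    omega
  have hepos : 0 < e := by
    by_contra hc
    obtain rfl : e = 0 := by omega
    have hM : M = 0 := by rw [← he2, mul_zero]
    exact h.notdvd (hM ▸ dvd_zero p)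
  refine ⟨kU, e, hkpos, ?_, hd, hkU, he1, he2, heq, hzq⟩
  have : kU ≤ kU * e := Nat.le_mul_of_pos_right _ hepos
  omega

end UHyp

end Cfsg.Agent.CsPSL
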