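import Cfsg.Agent.CsPSL.Core
import Cfsg.Agent.S1230

/-!
Recognition of `PSL(2, q)`, `q` even, from its centraliser orders.
-/

set_option autoImplicit false

namespace Cfsg.Agent.CsPSL

open Subgroup

theorem psl_even {X : Type*} [Group X] [Finite X] {q : ℕ} (hq4 : 4 ≤ q)
    (h : UHyp X 2 q (q ^ 2 - 1)) :
    ∃ (F : Type) (_ : Field F) (_ : Fintype F), Fintype.card F = q ∧
      Nonempty (X ≃* Matrix.ProjectiveSpecialLinearGroup (Fin 2) F) := by
  classical
  haveI : Fact (Nat.Prime 2) := ⟨Nat.prime_two⟩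
  obtain ⟨T⟩ : Nonempty (Sylow 2 X) := inferInstance
  obtain ⟨kU, e, hk0, hkq, hdvd, hU, he, hne, hz, hzq⟩ := h.relations T
  have hq2 : 1 ≤ q ^ 2 := Nat.one_le_pow _ _ (by omega)
  have hk1 : kU = 1 := by
    have h1 : q ∣ (q ^ 2 - 1) * kU + 1 + (kU - 1) := by
      have : (q ^ 2 - 1) * kU + 1 + (kU - 1) = q * (q * kU) := by
        rw [Nat.sub_mul, one_mul]
        have : kU ≤ q ^ 2 * kU := Nat.le_mul_of_pos_left _ (by omega)
        have e2 : q ^ 2 * kU = q * (q * kU) := by ring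
        omega
      rw [this]; exact dvd_mul_right _ _
    have h2 : q ∣ kU - 1 := (Nat.dvd_add_right hdvd).1 h1
    have := Nat.eq_zero_of_dvd_of_lt h2 (by omega)
    omega
  subst hk1
  rw [mul_one] at hU
  -- every non-trivial 2-element is an involution
  have hcard : Nat.card ↥(T : Subgroup X) = q := h.card_sylow_eq T
  obtain ⟨u, hu⟩ := exists_prime_orderOf_dvd_card' (G := X) 2 (by
    rw [h.card]; exact Dvd.dvd.mul_right h.dvd_q _)
  have hu1 : u ≠ 1 := fun e' => by rw [e', orderOf_one] at hu; omega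
  have huq : ord u = q := h.ord_of_isP hu1 ⟨1, by rw [hu, pow_one]⟩
  have hO : (Set.range fun x : X => x * u * x⁻¹) = UHyp.U q X := by
    refine Set.eq_of_subset_of_ncard_le ?_ ?_ (Set.toFinite _)
    · rintro _ ⟨x, rfl⟩
      exact ⟨fun e' => hu1 (conj_eq_one_iff.1 e'), by rw [ord_conj]; exact huq⟩
    · rw [hU, ClassSize.ncard_range_conj, h.index_of_U huq]
  have hinv : ∀ (S : Sylow 2 X), ∀ y ∈ (S : Subgroup X), y ^ 2 = 1 := by
    intro S y hy
    rcases eq_or_ne y 1 with rfl | hy1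
    · simp
    have : y ∈ Set.range fun x : X => x * u * x⁻¹ := by rw [hO]; exact ⟨hy1, h.ord_of_mem hy1 hy⟩
    obtain ⟨x, rfl⟩ := this
    rw [conj_pow, show u ^ 2 = 1 from hu ▸ pow_orderOf_eq_one u, mul_one, mul_inv_cancel]
  have hC : ∀ t : X, orderOf t = 2 → IsMulCommutative (Subgroup.centralizer ({t} : Set X)) ∧
      ∀ c ∈ Subgroup.centralizer ({t} : Set X), c ^ 2 = 1 := by
    intro t ht
    have ht1 : t ≠ 1 := fun e' => by rw [e', orderOf_one] at ht; omega
    obtain ⟨S, hS⟩ := h.exists_sylow_eq_cent (h.ord_of_isP ht1 ⟨1, by rw [ht, pow_one]⟩)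
    have h2 : ∀ c ∈ cent t, c ^ 2 = 1 := fun c hc => hinv S c (hS ▸ hc)
    refine ⟨⟨⟨fun a b => Subtype.ext ?_⟩⟩, h2⟩
    have ha := h2 _ a.2
    have hb := h2 _ b.2
    have hab := h2 _ (mul_mem a.2 b.2)
    rw [pow_two] at ha hb hab
    have := congrArg (fun z => (a : X) * z * (b : X)) hab
    simp only [mul_one] at this
    calc ((a * b : ↥(cent t)) : X) = (a : X) * b := rfl
      _ = (a : X) * ((a : X) * b * ((a : X) * b)) * b := this.symm
      _ = ((a : X) * a) * ((b : X) * a) * ((b : X) * b) := by group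
      _ = ((b * a : ↥(cent t)) : X) := by rw [ha, hb, one_mul, mul_one]; rfl
  have hnc : ¬ IsCyclic ↥(T : Subgroup X) := by
    intro hc
    obtain ⟨g, hg⟩ := hc.exists_generator
    have h1 : orderOf g = q := by rw [orderOf_eq_card_of_forall_mem_zpowers hg, hcard]
    have h2 : orderOf g ∣ 2 := orderOf_dvd_of_pow_eq_one (Subtype.ext (hinv T g g.2))
    rw [h1] at h2
    have := Nat.le_of_dvd (by norm_num) h2
    omega
  have hnn : ¬ (T : Subgroup X).Normal := by
    intro hn
    have htop : normalizer ((T : Subgroup X) : Set X) = ⊤ := by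
      exact Subgroup.normalizer_eq_top_iff.2 hn
    rw [htop, Subgroup.card_top, h.card] at he
    have h3 : e = q ^ 2 - 1 := (Nat.eq_of_mul_eq_mul_left (by omega) he).symm
    rw [one_mul, h3] at hz
    have : q * 2 ≤ q ^ 2 := by rw [pow_two]; exact Nat.mul_le_mul_left q (by omega)
    omega
  obtain ⟨F, iF, iFF, hF, hiso⟩ := S1230.result T hnc hnn hC
  exact ⟨F, iF, iFF, hF.trans hcard, hiso⟩

end Cfsg.Agent.CsPSL
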