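import Cfsg.Agent.CsPSL.Core
import Cfsg.Agent.CsPSL.Lift
import Mathlib.Combinatorics.Enumerative.DoubleCounting

/-!
Counting in groups with the centraliser orders of `PSL(2, q)`, `q` odd.
-/

set_option autoImplicit false

namespace Cfsg.Agent.CsPSL

open Subgroup
open scoped Classical

/-- The centraliser orders of `PSL(2, q)`: here `D = 2a + 1` is `(q + ε)/2` and `Q = q - ε`. -/
structure OHyp (X : Type*) [Group X] (p q D Q a K : ℕ) : Prop where
  u : UHyp X p q (Q * D)
  p_ne_two : p ≠ 2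
  hD : D = 2 * a + 1
  cases : (q = 4 * a + 3 ∧ Q = 4 * a + 4 ∧ K = 2 * a + 1 ∧ 1 ≤ a) ∨
    (q = 4 * a + 1 ∧ Q = 4 * a ∧ K + 1 = 2 * a ∧ 2 ≤ a)
  ord_mem : ∀ g : X, g ≠ 1 → ord g = q ∨ ord g = D ∨ ord g = Q ∨ 2 * ord g = Q

/-- Subgroups conjugate to a given one are as many as the index of its normaliser. -/
theorem ncard_range_map_conj {X : Type*} [Group X] [Finite X] (C : Subgroup X) :
    (Set.range fun x : X => C.map (MulAut.conj x).toMonoidHom).ncard =
      (normalizer (C : Set X)).index := by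
  set f : X → Subgroup X := fun x => C.map (MulAut.conj x).toMonoidHom with hf
  have key : ∀ x y : X, f x = f y ↔ x⁻¹ * y ∈ normalizer (C : Set X) := by
    intro x y
    have hcomp : ∀ z w : X, (f w).map (MulAut.conj z).toMonoidHom = f (z * w) := by
      intro z w
      rw [hf, Subgroup.map_map]
      congr 1
      ext t
      simp [MulAut.conj_apply, mul_assoc]
    have hone : f 1 = C := by
      rw [hf]; ext t; simp
    have hfix : ∀ z : X, f z = C ↔ z ∈ normalizer (C : Set X) := by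
      intro z
      constructor
      · intro e
        rw [Subgroup.mem_normalizer_iff]
        intro t
        constructor
        · intro ht; rw [← e]; exact ⟨t, ht, rfl⟩
        · intro ht
          rw [← e] at ht
          obtain ⟨t', ht', e'⟩ := ht
          have : t' = t := (MulAut.conj z).injective e'
          rwa [this] at ht'
      · intro hz
        ext t
        constructor
        · rintro ⟨t', ht', rfl⟩; exact (Subgroup.mem_normalizer_iff.1 hz t').1 ht'
        · intro ht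
          refine ⟨z⁻¹ * t * z, ?_, by simp [mul_assoc]⟩
          apply (Subgroup.mem_normalizer_iff.1 hz _).2
          simpa [mul_assoc] using ht
    rw [← hfix, ← hcomp]
    constructor
    · intro e
      rw [← e, hcomp, inv_mul_cancel, hone]
    · intro e
      have := congrArg (fun H : Subgroup X => H.map (MulAut.conj x).toMonoidHom) e
      simp only [hcomp, mul_inv_cancel_left] at this
      exact this.symm
  rw [Subgroup.index, ← Nat.card_coe_set_eq]
  refine (Nat.card_congr (Equiv.ofBijective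
    (Quotient.lift (fun x => (⟨f x, x, rfl⟩ : Set.range f)) fun x y hxy =>
      Subtype.ext ((key x y).2 (QuotientGroup.leftRel_apply.1 hxy))) ⟨?_, ?_⟩)).symm
  · intro x y
    refine Quotient.inductionOn₂ x y fun x y e => Quotient.sound ?_
    exact QuotientGroup.leftRel_apply.2 ((key x y).1 (congrArg Subtype.val e))
  · rintro ⟨_, x, rfl⟩
    exact ⟨⟦x⟧, rfl⟩

namespace OHyp

variable {X : Type*} [Group X] [Finite X] {p q D Q a K : ℕ} (h : OHyp X p q D Q a K)
include h

omit [Finite X] in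
theorem odd_q : Odd q := by
  rcases h.cases with ⟨hq, -⟩ | ⟨hq, -⟩
  · exact ⟨2 * a + 1, by omega⟩
  · exact ⟨2 * a, by omega⟩

omit [Finite X] in
theorem odd_D : Odd D := ⟨a, h.hD⟩

omit [Finite X] in
theorem two_dvd_Q : 4 ∣ Q := by
  rcases h.cases with ⟨-, hQ, -⟩ | ⟨-, hQ, -⟩
  · exact ⟨a + 1, by omega⟩
  · exact ⟨a, hQ⟩

omit [Finite X] in
theorem sq_q : 2 * (Q * D) + 1 = q ^ 2 := by
  rcases h.cases with ⟨hq, hQ, -⟩ | ⟨hq, hQ, -⟩ <;> rw [hq, hQ, h.hD] <;> ring

omit [Finite X] in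
theorem coprime_D_Q : Nat.Coprime D Q := by
  have h2 : Nat.Coprime (2 * a + 1) 2 := by
    rw [Nat.coprime_two_right]; exact ⟨a, rfl⟩
  refine Nat.coprime_of_dvd fun k hk h1 h3 => ?_
  rw [h.hD] at h1
  have hk2 : k ∣ 2 := by
    rcases h.cases with ⟨-, hQ, -⟩ | ⟨-, hQ, -⟩
    · rw [hQ] at h3
      have := Nat.dvd_sub h3 (h1.mul_left 2)
      rwa [show 4 * a + 4 - 2 * (2 * a + 1) = 2 by omega] at this
    · rw [hQ] at h3
      have := Nat.dvd_sub (h1.mul_left 2) h3
      rwa [show 2 * (2 * a + 1) - 4 * a = 2 by omega] at this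
  exact hk.one_lt.ne' (Nat.eq_one_of_dvd_coprimes h2 h1 hk2)

omit [Finite X] in
theorem coprime_q_D : Nat.Coprime q D := h.u.coprime_q_M.coprime_mul_left_right

omit [Finite X] in
theorem coprime_q_Q : Nat.Coprime q Q := h.u.coprime_q_M.coprime_mul_right_right

omit [Finite X] in
theorem card_eq : Nat.card X = q * (Q * D) := h.u.card

theorem two_dvd_card : 2 ∣ Nat.card X := by
  rw [h.card_eq]
  exact (((by norm_num : 2 ∣ 4).trans h.two_dvd_Q).mul_right D).mul_left q

theorem center_eq_one {g : X} (hg : g ∈ Subgroup.center X) : g = 1 := by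
  by_contra hne
  have hord : ord g = q * (Q * D) := by
    unfold ord
    rw [mem_center_iff_cent.1 hg, Subgroup.card_top, h.card_eq]
  have hq := h.u.one_lt_q
  have hD : 3 ≤ D := by rcases h.cases with ⟨-, -, -, ha⟩ | ⟨-, -, -, ha⟩ <;> · rw [h.hD]; omega
  have hQ : 4 ≤ Q := by rcases h.cases with ⟨-, e, -⟩ | ⟨-, e, -, ha⟩ <;> omega
  have h1 : q * 2 ≤ q * (Q * D) := Nat.mul_le_mul_left q (by nlinarith)
  have h2 : Q * D * 2 ≤ Q * D * q := Nat.mul_le_mul_left _ hq
  have h3 : q * (Q * D) = Q * D * q := mul_comm _ _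
  have h4 : D ≤ Q * D := Nat.le_mul_of_pos_left _ (by omega)
  have h5 : Q ≤ Q * D := Nat.le_mul_of_pos_right _ (by omega)
  rcases h.ord_mem g hne with e | e | e | e <;> rw [hord] at e <;> omega

theorem index_eq {g : X} {d m : ℕ} (hd : ord g = d) (hm : d * m = q * (Q * D)) :
    (cent g).index = m := by
  have := ord_mul_index g
  rw [hd, h.card_eq, ← hm] at this
  refine Nat.eq_of_mul_eq_mul_left ?_ this
  exact hd ▸ Nat.card_pos

/-- The elements with centraliser of order `D`. -/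
def B (D : ℕ) (X : Type*) [Group X] : Set X := {y | y ≠ 1 ∧ ord y = D}

/-- The elements with centraliser of even order. -/
def W (X : Type*) [Group X] : Set X := {y | y ≠ 1 ∧ 2 ∣ ord y}

/-- The involutions. -/
def I (X : Type*) [Group X] : Set X := {y | y ≠ 1 ∧ y * y = 1}

theorem ord_cases_of_even {g : X} (hg : g ∈ W X) : ord g = Q ∨ 2 * ord g = Q := by
  rcases h.ord_mem g hg.1 with e | e | e | e
  · exact absurd (e ▸ hg.2) (Nat.two_dvd_ne_zero.2 (Nat.odd_iff.1 h.odd_q))
  · exact absurd (e ▸ hg.2) (Nat.two_dvd_ne_zero.2 (Nat.odd_iff.1 h.odd_D))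
  · exact Or.inl e
  · exact Or.inr e

theorem mem_W_of_ord {g : X} (hg : g ≠ 1) (e : ord g = Q ∨ 2 * ord g = Q) : g ∈ W X := by
  refine ⟨hg, ?_⟩
  obtain ⟨c, hc⟩ := h.two_dvd_Q
  rcases e with e | e
  · exact ⟨2 * c, by omega⟩
  · exact ⟨c, by omega⟩

theorem ord_le_Q {g : X} (hg : g ∈ W X) : ord g ≤ Q := by
  rcases h.ord_cases_of_even hg with e | e <;> omega

theorem I_subset_W : I X ⊆ W X := by
  rintro g ⟨hg, hg2⟩
  refine ⟨hg, Dvd.dvd.trans ?_ (orderOf_dvd_ord g)⟩
  exact (orderOf_eq_prime (p := 2) (by rw [pow_two]; exact hg2) hg).symm.dvd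

theorem mem_W_of_commute_involution {g v : X} (hg : g ≠ 1) (hv : v ∈ I X)
    (hc : v ∈ cent g) : g ∈ W X := by
  refine ⟨hg, Dvd.dvd.trans ?_ (Subgroup.orderOf_dvd_natCard _ hc)⟩
  exact (orderOf_eq_prime (p := 2) (by rw [pow_two]; exact hv.2) hv.1).symm.dvd

theorem I_conj {g : X} (hg : g ∈ I X) (x : X) : x * g * x⁻¹ ∈ I X :=
  ⟨fun e => hg.1 (conj_eq_one_iff.1 e), by
    rw [show x * g * x⁻¹ * (x * g * x⁻¹) = x * (g * g) * x⁻¹ by group, hg.2, mul_one, mul_inv_cancel]⟩

theorem card_U_eq : (UHyp.U q X).ncard = Q * D * 2 := by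
  haveI : Fact p.Prime := ⟨h.u.prime⟩
  obtain ⟨P⟩ : Nonempty (Sylow p X) := inferInstance
  obtain ⟨kU, e, hk0, hkq, hdvd, hU, -⟩ := h.u.relations P
  suffices kU = 2 by rw [hU, this]
  have h2 : q ∣ 2 * (Q * D) * kU + 2 := by
    have := hdvd.mul_left 2
    rwa [mul_add, mul_one, ← mul_assoc] at this
  have hq3 : 3 ≤ q := by rcases h.cases with ⟨e, -⟩ | ⟨e, -⟩ <;> omega
  have hsq : 2 * (Q * D) * kU + kU = q * (q * kU) := by
    have := h.sq_q
    calc 2 * (Q * D) * kU + kU = (2 * (Q * D) + 1) * kU := by ring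
      _ = q * (q * kU) := by rw [this]; ring
  rcases le_or_gt kU 2 with hk | hk
  · have h3 : q ∣ 2 * (Q * D) * kU + 2 - q * (q * kU) := Nat.dvd_sub h2 (dvd_mul_right _ _)
    rw [← hsq, show 2 * (Q * D) * kU + 2 - (2 * (Q * D) * kU + kU) = 2 - kU by omega] at h3
    have := Nat.eq_zero_of_dvd_of_lt h3 (by omega)
    omega
  · have h3 : q ∣ q * (q * kU) - (2 * (Q * D) * kU + 2) := Nat.dvd_sub (dvd_mul_right _ _) h2
    rw [← hsq, show 2 * (Q * D) * kU + kU - (2 * (Q * D) * kU + 2) = kU - 2 by omega] at h3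
    have := Nat.eq_zero_of_dvd_of_lt h3 (by omega)
    omega

theorem counts : (B D X).ncard = q * Q * a ∧ (W X).ncard = q * D * K := by
  obtain ⟨kB, hB⟩ : q * Q ∣ (B D X).ncard := by
    refine dvd_ncard_of_conj_invariant _ ?_ fun y hy => (h.index_eq hy.2 (by ring)).symm.dvd
    rintro y ⟨hy, hy'⟩ x
    exact ⟨fun e => hy (conj_eq_one_iff.1 e), by rw [ord_conj]; exact hy'⟩
  obtain ⟨kW, hW⟩ : q * D ∣ (W X).ncard := by
    refine dvd_ncard_of_conj_invariant _ ?_ ?_
    · rintro y ⟨hy, hy'⟩ x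
      exact ⟨fun e => hy (conj_eq_one_iff.1 e), by rw [ord_conj]; exact hy'⟩
    · intro y hy
      rcases h.ord_cases_of_even hy with e | e
      · rw [h.index_eq e (by ring : Q * (q * D) = q * (Q * D))]
      · rw [h.index_eq rfl (m := 2 * (q * D)) (by rw [← e]; ring)]
        exact dvd_mul_left _ _
  have huniv : UHyp.U q X ∪ B D X ∪ W X ∪ {1} = Set.univ := by
    ext y
    simp only [UHyp.U, B, W, Set.mem_union, Set.mem_setOf_eq, Set.mem_singleton_iff, Set.mem_univ,
      iff_true]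
    by_cases hy : y = 1
    · exact Or.inr hy
    refine Or.inl ?_
    rcases h.ord_mem y hy with e | e | e | e
    · exact Or.inl (Or.inl ⟨hy, e⟩)
    · exact Or.inl (Or.inr ⟨hy, e⟩)
    · exact Or.inr (h.mem_W_of_ord hy (Or.inl e))
    · exact Or.inr (h.mem_W_of_ord hy (Or.inr e))
  have hqD : q ≠ D := fun e => by
    have := h.coprime_q_D
    rw [← e, Nat.coprime_self] at this
    have := h.u.one_lt_q
    omega
  have hd1 : Disjoint (UHyp.U q X) (B D X) :=
    Set.disjoint_left.2 fun y hy hy' => hqD (hy.2.symm.trans hy'.2)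
  have hd2 : Disjoint (UHyp.U q X ∪ B D X) (W X) := by
    rw [Set.disjoint_left]
    rintro y (hy | hy) hy'
    · exact Nat.two_dvd_ne_zero.2 (Nat.odd_iff.1 h.odd_q) (hy.2 ▸ hy'.2)
    · exact Nat.two_dvd_ne_zero.2 (Nat.odd_iff.1 h.odd_D) (hy.2 ▸ hy'.2)
  have hd3 : Disjoint (UHyp.U q X ∪ B D X ∪ W X) ({1} : Set X) := by
    rw [Set.disjoint_singleton_right]
    rintro ((⟨h', -⟩ | ⟨h', -⟩) | ⟨h', -⟩) <;> exact h' rfl
  have hn := congrArg Set.ncard huniv
  rw [Set.ncard_union_eq hd3, Set.ncard_union_eq hd2, Set.ncard_union_eq hd1, Set.ncard_singleton,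
    Set.ncard_univ, h.card_U_eq, hB, hW, h.card_eq] at hn
  have heq : q + Q * kB + D * kW = Q * D := by
    refine Nat.eq_of_mul_eq_mul_left (by have := h.u.one_lt_q; omega : 0 < q) ?_
    have hsq := h.sq_q
    rw [← hn]
    calc q * (q + Q * kB + D * kW) = q ^ 2 + q * Q * kB + q * D * kW := by ring
      _ = _ := by rw [← hsq]; ring
  have hkB : kB = a ∧ kW = K := by
    have hdvd : D ∣ 2 * kB + 1 := by
      rcases h.cases with ⟨hq, hQ, -⟩ | ⟨hq, hQ, -⟩
      · have e : D * (2 + 2 * kB + kW) + (2 * kB + 1) = D * Q := by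
          rw [hq, hQ, h.hD] at heq
          rw [hQ, h.hD]
          linarith
        exact (Nat.dvd_add_right (dvd_mul_right D _)).1 (e ▸ dvd_mul_right D Q)
      · have e : D * Q + (2 * kB + 1) = D * (2 + 2 * kB + kW) := by
          rw [hq, hQ, h.hD] at heq
          rw [hQ, h.hD]
          linarith
        exact (Nat.dvd_add_right (dvd_mul_right D _)).1 (e ▸ dvd_mul_right D _)
    obtain ⟨j, hj⟩ := hdvd
    have hQ0 : 0 < Q := by rcases h.cases with ⟨-, e, -⟩ | ⟨-, e, -, ha⟩ <;> omega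
    have hkle : kB ≤ D := Nat.le_of_mul_le_mul_left (by omega : Q * kB ≤ Q * D) hQ0
    have hj1 : j = 1 := by
      rcases j with _ | _ | _ | j
      · omega
      · rfl
      · omega
      · exfalso
        have : 3 * D ≤ 2 * kB + 1 := by
          rw [hj, mul_comm 3 D]; exact Nat.mul_le_mul_left D (by omega)
        have := h.hD
        rcases h.cases with ⟨-, -, -, ha⟩ | ⟨-, -, -, ha⟩ <;> omega
    rw [hj1, mul_one, h.hD] at hj
    have hkB : kB = a := by omega
    refine ⟨hkB, ?_⟩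
    subst hkB
    rw [h.hD] at heq
    rcases h.cases with ⟨hq, hQ, hK, -⟩ | ⟨hq, hQ, hK, ha⟩
    · rw [hq, hQ] at heq
      have : (2 * kB + 1) * kW = (2 * kB + 1) * K := by rw [hK]; linarith
      exact Nat.eq_of_mul_eq_mul_left (by omega) this
    · rw [hq, hQ] at heq
      have : (2 * kB + 1) * (kW + 1) = (2 * kB + 1) * (K + 1) := by rw [hK]; linarith
      have := Nat.eq_of_mul_eq_mul_left (by omega : 0 < 2 * kB + 1) this
      omega
  rw [hB, hW, hkB.1, hkB.2]
  exact ⟨rfl, rfl⟩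

/-! ### Centralisers of order `D` -/

theorem ord_of_mem_cent_B {f y : X} (hf : ord f = D) (hy : y ∈ cent f) (hy1 : y ≠ 1) : ord y = D := by
  have hyD : orderOf y ∣ D := hf ▸ Subgroup.orderOf_dvd_natCard _ hy
  have hyo := orderOf_dvd_ord y
  have hne : orderOf y ≠ 1 := fun e => hy1 (orderOf_eq_one_iff.1 e)
  rcases h.ord_mem y hy1 with e | e | e | e
  · exact absurd (Nat.eq_one_of_dvd_coprimes h.coprime_q_D (e ▸ hyo) hyD) hne
  · exact e
  · exact absurd (Nat.eq_one_of_dvd_coprimes h.coprime_D_Q hyD (e ▸ hyo)) hne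
  · exact absurd (Nat.eq_one_of_dvd_coprimes h.coprime_D_Q hyD
      (hyo.trans ⟨2, by rw [← e, mul_comm]⟩)) hne

theorem cent_comm_B {f : X} (hf : f ∈ B D X) :
    ∀ x ∈ cent f, ∀ y ∈ cent f, x * y = y * x := by
  have hiso : Isolated f := by
    refine ⟨fun hc => hf.1 (h.center_eq_one hc), fun g hg hgf => ?_⟩
    have hg1 : g ≠ 1 := fun e => hg (e ▸ one_mem _)
    have hgm : g ∈ cent f := by
      rcases hgf with hle | hle
      · exact hle (self_mem_cent g)
      · exact mem_cent_symm (hle (self_mem_cent f))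
    have hgD := h.ord_of_mem_cent_B hf.2 hgm hg1
    rcases hgf with hle | hle
    · exact eq_of_le_of_card_ge hle (hgD.trans hf.2.symm).ge
    · exact (eq_of_le_of_card_ge hle (hgD.trans hf.2.symm).le).symm
  obtain ⟨r, y, hr, hy, hye, hyiso⟩ := hiso.exists_prime_power
  rcases hyiso.comm_or_pgroup hr hy with hab | hpg
  · rw [← hye]; exact hab
  haveI : Fact r.Prime := ⟨hr⟩
  have hyD : ord y = D := by unfold ord; rw [hye]; exact hf.2
  have hgrp : IsPGroup r ↥(cent y) := by
    rintro ⟨x, hx⟩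
    obtain ⟨k, hk⟩ := hpg x hx
    exact ⟨k, Subtype.ext (h.center_eq_one hk)⟩
  obtain ⟨i, hi⟩ := hgrp.exists_card_eq
  rw [show Nat.card ↥(cent y) = D from hyD] at hi
  have hi0 : 0 < i := by
    rcases i with _ | i
    · rw [pow_zero] at hi
      rcases h.cases with ⟨-, -, -, ha⟩ | ⟨-, -, -, ha⟩ <;> · have := h.hD; omega
    · omega
  have hrD : r ∣ D := hi ▸ dvd_pow_self r hi0.ne'
  have hrM : ¬ r ∣ q * Q := fun hd => hr.one_lt.ne' (Nat.eq_one_of_dvd_coprimes
    (Nat.Coprime.mul_right h.coprime_q_D.symm h.coprime_D_Q) hrD hd)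
  have hU : UHyp X r D (q * Q) := by
    refine ⟨hr, by rw [h.card_eq]; ring, ⟨i, hi0, hi⟩, hrM, fun g hg hgd => ?_⟩
    rcases h.ord_mem g hg with e | e | e | e
    · exact absurd (Nat.eq_one_of_dvd_coprimes h.coprime_q_D (e ▸ hgd) hrD) hr.one_lt.ne'
    · exact e
    · exact absurd (Nat.eq_one_of_dvd_coprimes h.coprime_D_Q hrD (e ▸ hgd)) hr.one_lt.ne'
    · exact absurd (Nat.eq_one_of_dvd_coprimes h.coprime_D_Q hrD
        (hgd.trans ⟨2, by rw [← e, mul_comm]⟩)) hr.one_lt.ne'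
  obtain ⟨P, hP⟩ := hU.exists_sylow_eq_cent hyD
  obtain ⟨kU, e, hk0, -, -, hUc, -, -, hz, hzD⟩ := hU.relations P
  have hka : kU = a := by
    have h1 := h.counts.1
    rw [show B D X = UHyp.U D X from rfl, hUc] at h1
    exact Nat.eq_of_mul_eq_mul_left (Nat.mul_pos (by have := h.u.one_lt_q; omega)
      (by rcases h.cases with ⟨-, e', -⟩ | ⟨-, e', -, ha⟩ <;> omega)) h1
  subst hka
  have hzd : Nat.card ↥(UHyp.zSyl (P : Subgroup X)) ∣ D :=
    hU.card_sylow_eq P ▸ Subgroup.card_dvd_of_le inf_le_left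
  have he2 : e = 2 := by
    rw [← hz, h.hD] at hzd
    rw [← hz, h.hD] at hzD
    rcases e with _ | _ | _ | e
    · exfalso
      rw [mul_zero, zero_add] at hz
      haveI : Nontrivial ↥(P : Subgroup X) := Finite.one_lt_card_iff_nontrivial.1 (by
        rw [hU.card_sylow_eq P]; exact hU.one_lt_q)
      obtain ⟨⟨z, hz'⟩, hzne⟩ := (nontrivial_iff_exists_ne (1 : Subgroup.center ↥(P : Subgroup X))).1
        P.2.center_nontrivial
      have hzmem : (z : X) ∈ UHyp.zSyl (P : Subgroup X) := ⟨z.2, fun b hb => by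
        have := Subgroup.mem_center_iff.1 hz' ⟨b, hb⟩
        exact congrArg Subtype.val this⟩
      have hone := Subgroup.card_eq_one.1 hz.symm
      rw [hone, Subgroup.mem_bot] at hzmem
      exact hzne (Subtype.ext (Subtype.ext hzmem))
    · exfalso
      rw [zero_add, mul_one] at hzd
      have h3 := Nat.dvd_sub (hzd.mul_left 1) (dvd_refl (kU + 1))
      rw [one_mul, show 2 * kU + 1 - (kU + 1) = kU by omega] at h3
      have := Nat.le_of_dvd (by omega) h3
      omega
    · rfl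
    · exfalso; nlinarith
  subst he2
  have hfull : UHyp.zSyl (P : Subgroup X) = (P : Subgroup X) := by
    refine eq_of_le_of_card_ge inf_le_left ?_
    rw [hU.card_sylow_eq P, ← hz, h.hD]; omega
  rw [← hye, ← hP]
  intro x hx z hz'
  have : z ∈ Subgroup.centralizer ((P : Subgroup X) : Set X) := (hfull.symm ▸ hz' :
    z ∈ UHyp.zSyl (P : Subgroup X)).2
  exact Subgroup.mem_centralizer_iff.1 this x hx

theorem cent_eq_of_mem_B {f y : X} (hf : f ∈ B D X) (hy : y ∈ cent f) (hy1 : y ≠ 1) :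
    cent y = cent f :=
  (eq_of_le_of_card_ge (fun x hx => mem_cent.2 (h.cent_comm_B hf x hx y hy))
    ((h.ord_of_mem_cent_B hf.2 hy hy1).trans hf.2.symm).le).symm

theorem card_normalizer_B {f : X} (hf : f ∈ B D X) :
    Nat.card ↥(normalizer (cent f : Set X)) = 2 * D := by
  obtain ⟨r, hr, hrD⟩ := Nat.exists_prime_and_dvd (n := D) (by
    rcases h.cases with ⟨-, -, -, ha⟩ | ⟨-, -, -, ha⟩ <;> · rw [h.hD]; omega)
  haveI : Fact r.Prime := ⟨hr⟩
  have hidx : ∀ g ∈ B D X, ¬ r ∣ (cent g).index := fun g hg hd => by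
    rw [h.index_eq hg.2 (m := q * Q) (by ring)] at hd
    exact hr.one_lt.ne' (Nat.eq_one_of_dvd_coprimes
      (Nat.Coprime.mul_right h.coprime_q_D.symm h.coprime_D_Q) hrD hd)
  have hconj : ∀ g ∈ B D X, ∃ x : X, cent g = (cent f).map (MulAut.conj x).toMonoidHom := by
    intro g hg
    obtain ⟨⟨z, hzg⟩, hz⟩ := exists_prime_orderOf_dvd_card' (G := ↥(cent g)) r (show r ∣ ord g by rw [hg.2]; exact hrD)
    rw [Subgroup.orderOf_mk] at hz
    have hzp : IsPGroup r (zpowers z) := IsPGroup.of_card (n := 1) (by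
      rw [Nat.card_zpowers, hz, pow_one])
    obtain ⟨x, hx⟩ := exists_conj_le_of_sylow (hidx f hf) hzp
    have hz1 : z ≠ 1 := fun e => by
      rw [e, orderOf_one] at hz; exact hr.one_lt.ne hz
    have e1 : cent (x * z * x⁻¹) = cent f := h.cent_eq_of_mem_B hf (hx z (mem_zpowers z))
      fun e => hz1 (conj_eq_one_iff.1 e)
    refine ⟨x⁻¹, ?_⟩
    rw [← h.cent_eq_of_mem_B hg hzg hz1, ← e1, ← cent_conj]
    congr 1
    group
  have hcount : (B D X).ncard =
      (Set.range fun x : X => (cent f).map (MulAut.conj x).toMonoidHom).ncard * (D - 1) := by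
    refine ncard_eq_mul_of_fibers (B D X) _ (fun g => cent g) (D - 1) ?_ ?_
    · intro g hg
      obtain ⟨x, hx⟩ := hconj g hg
      exact ⟨x, hx.symm⟩
    · rintro _ ⟨x, rfl⟩
      simp only [← cent_conj]
      set f' := x * f * x⁻¹ with hf'
      have hf'B : f' ∈ B D X :=
        ⟨fun e => hf.1 (conj_eq_one_iff.1 e), by rw [hf', ord_conj]; exact hf.2⟩
      have : {g ∈ B D X | cent g = cent f'} = (cent f' : Set X) \ {1} := by
        ext g
        constructor
        · rintro ⟨⟨hg1, -⟩, hg⟩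
          exact ⟨hg ▸ self_mem_cent g, hg1⟩
        · rintro ⟨hg, hg1⟩
          exact ⟨⟨hg1, h.ord_of_mem_cent_B hf'B.2 hg hg1⟩, h.cent_eq_of_mem_B hf'B hg hg1⟩
      rw [this, Set.ncard_sdiff_singleton_of_mem (one_mem _), ← Nat.card_coe_set_eq]
      exact congrArg (· - 1) hf'B.2
  rw [ncard_range_map_conj, h.counts.1, h.hD, show 2 * a + 1 - 1 = 2 * a by omega] at hcount
  have ha : 0 < a := by rcases h.cases with ⟨-, -, -, ha⟩ | ⟨-, -, -, ha⟩ <;> omega
  have h1 : q * Q = (normalizer (cent f : Set X)).index * 2 :=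
    Nat.eq_of_mul_eq_mul_right ha (by rw [hcount]; ring)
  have h2 := Subgroup.card_mul_index (normalizer (cent f : Set X))
  have hi0 : 0 < (normalizer (cent f : Set X)).index :=
    Nat.pos_of_ne_zero Subgroup.index_ne_zero_of_finite
  rw [h.card_eq, ← mul_assoc, h1, mul_assoc, mul_comm] at h2
  exact Nat.eq_of_mul_eq_mul_left hi0 h2

end OHyp

end Cfsg.Agent.CsPSL
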