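import Cfsg.Agent.CsPSL.OddCount

/-!
Involutions in groups with the centraliser orders of `PSL(2, q)`, `q` odd.
-/

set_option autoImplicit false

namespace Cfsg.Agent.CsPSL

open Subgroup
open scoped Classical

variable {X : Type*} [Group X] [Finite X]

/-- The elements inverting `g`. -/
def inverters (g : X) : Set X := {x | x * g * x⁻¹ = g⁻¹}

theorem ncard_inverters_le (g : X) : (inverters g).ncard ≤ ord g := by
  rcases (inverters g).eq_empty_or_nonempty with h | ⟨x₀, hx₀⟩
  · rw [h, Set.ncard_empty]; exact Nat.zero_le _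
  rw [show ord g = (cent g : Set X).ncard from Nat.card_coe_set_eq _]
  refine Set.ncard_le_ncard_of_injOn (fun x => x₀⁻¹ * x) ?_
    ((mul_right_injective x₀⁻¹).injOn) (Set.toFinite _)
  intro x hx
  have h1 : x * g * x⁻¹ = x₀ * g * x₀⁻¹ := hx.trans hx₀.symm
  refine mem_cent.2 ?_
  have := congrArg (fun z => x₀⁻¹ * z * x) h1
  simpa [mul_assoc] using this

theorem inv_eq_of_I {u : X} (hu : u ∈ OHyp.I X) : u⁻¹ = u := inv_eq_of_mul_eq_one_right hu.2

theorem mem_inverters_of_involutions {u g : X} (hu : u ∈ OHyp.I X) (hv : u * g ∈ OHyp.I X) :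
    u ∈ inverters g := by
  show u * g * u⁻¹ = g⁻¹
  rw [inv_eq_of_I hu]
  exact eq_inv_of_mul_eq_one_left (by rw [mul_assoc]; exact hv.2)

/-- The involutions commuting with `u` and different from it. -/
def others (u : X) : Set X := {v | v ∈ OHyp.I X ∧ v ≠ u ∧ v ∈ cent u}

theorem ncard_others_conj (x u : X) : (others (x * u * x⁻¹)).ncard = (others u).ncard := by
  have : others (x * u * x⁻¹) = (fun v => x * v * x⁻¹) '' others u := by
    ext v
    constructor
    · rintro ⟨h1, h2, h3⟩
      refine ⟨x⁻¹ * v * x, ⟨⟨?_, ?_⟩, ?_, ?_⟩, by simp [mul_assoc]⟩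
      · intro e; apply h1.1
        rw [show v = x * (x⁻¹ * v * x) * x⁻¹ by group, e]; group
      · rw [show x⁻¹ * v * x * (x⁻¹ * v * x) = x⁻¹ * (v * v) * x by group, h1.2]; group
      · intro e; apply h2
        rw [show v = x * (x⁻¹ * v * x) * x⁻¹ by group, e]
      · have := conj_mem_cent (x := x⁻¹) h3
        rwa [show x⁻¹ * (x * u * x⁻¹) * x⁻¹⁻¹ = u by group, inv_inv] at this
    · rintro ⟨v, ⟨h1, h2, h3⟩, rfl⟩
      refine ⟨⟨fun e => h1.1 (conj_eq_one_iff.1 e), ?_⟩, fun e => h2 ?_, conj_mem_cent h3⟩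
      · rw [show x * v * x⁻¹ * (x * v * x⁻¹) = x * (v * v) * x⁻¹ by group, h1.2]; group
      · exact mul_left_cancel (mul_right_cancel e)
  rw [this]
  exact Set.ncard_image_of_injective _ (fun a b e => mul_left_cancel (mul_right_cancel e))

namespace OHyp

variable {p q D Q a K : ℕ} (h : OHyp X p q D Q a K)
include h

theorem ord_of_sylow_le {g : X} (hg : g ∈ W X) (T : Sylow 2 X)
    (hT : (T : Subgroup X) ≤ cent g) : ord g = Q := by
  haveI : Fact (Nat.Prime 2) := ⟨Nat.prime_two⟩
  rcases h.ord_cases_of_even hg with e | e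
  · exact e
  · exfalso
    have h1 : (cent g).index = 2 * (q * D) := h.index_eq rfl (by rw [← e]; ring)
    exact T.not_dvd_index ((h1 ▸ dvd_mul_right 2 _ : 2 ∣ (cent g).index).trans
      (Subgroup.index_dvd_of_le hT))

omit [Finite X] h in
theorem mem_I_of_orderOf {u : X} (hu : orderOf u = 2) : u ∈ I X := by
  refine ⟨fun e => ?_, ?_⟩
  · rw [e, orderOf_one] at hu; omega
  · rw [← pow_two, ← hu, pow_orderOf_eq_one]

theorem exists_central_involution (T : Sylow 2 X) :
    ∃ u ∈ I X, (T : Subgroup X) ≤ cent u ∧ ord u = Q := by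
  haveI : Fact (Nat.Prime 2) := ⟨Nat.prime_two⟩
  haveI : Nontrivial ↥(T : Subgroup X) := Finite.one_lt_card_iff_nontrivial.1 (by
    rw [T.card_eq_multiplicity]
    exact Nat.one_lt_pow (by
      have := (Nat.prime_two.dvd_iff_one_le_factorization Nat.card_pos.ne').1 h.two_dvd_card
      omega) (by norm_num))
  haveI := T.2.center_nontrivial
  obtain ⟨i, hi⟩ := (T.2.to_subgroup (Subgroup.center ↥(T : Subgroup X))).exists_card_eq
  have h2 : 2 ∣ Nat.card ↥(Subgroup.center ↥(T : Subgroup X)) := by
    have : 1 < Nat.card ↥(Subgroup.center ↥(T : Subgroup X)) := Finite.one_lt_card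
    rw [hi] at this ⊢
    exact dvd_pow_self 2 fun e => by rw [e, pow_zero] at this; omega
  obtain ⟨⟨z, hz⟩, hz2⟩ := exists_prime_orderOf_dvd_card' 2 h2
  have hzo : orderOf (z : X) = 2 := by
    rw [Subgroup.orderOf_coe]
    rw [Subgroup.orderOf_mk] at hz2
    exact hz2
  have hTz : (T : Subgroup X) ≤ cent (z : X) := fun x hx =>
    mem_cent.2 (congrArg Subtype.val (Subgroup.mem_center_iff.1 hz ⟨x, hx⟩))
  exact ⟨z, mem_I_of_orderOf hzo, hTz, h.ord_of_sylow_le (h.I_subset_W (mem_I_of_orderOf hzo)) T hTz⟩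

/-- There is only one class of involutions. -/
theorem isConj_involutions {u v : X} (hu : u ∈ I X) (hv : v ∈ I X) : IsConj u v := by
  haveI := Fintype.ofFinite X
  by_contra hne
  set C₁ : Finset X := Finset.univ.filter fun x => IsConj u x with hC1
  set C₂ : Finset X := Finset.univ.filter fun x => IsConj v x with hC2
  have hC1I : ∀ x ∈ C₁, x ∈ I X := by
    intro x hx
    obtain ⟨y, rfl⟩ := isConj_iff.1 (Finset.mem_filter.1 hx).2
    exact h.I_conj hu y
  have hC2I : ∀ x ∈ C₂, x ∈ I X := by
    intro x hx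
    obtain ⟨y, rfl⟩ := isConj_iff.1 (Finset.mem_filter.1 hx).2
    exact h.I_conj hv y
  have hsize : ∀ w : X, w ∈ I X → q * D ≤ (Finset.univ.filter fun x => IsConj w x).card := by
    intro w hw
    have h1 : (Finset.univ.filter fun x => IsConj w x).card = (cent w).index := by
      have := ClassSize.ncard_setOf_isConj w
      rw [Set.ncard_eq_toFinset_card'] at this
      rw [← this]
      congr 1
      ext x; simp
    rw [h1]
    rcases h.ord_cases_of_even (h.I_subset_W hw) with e | e
    · rw [h.index_eq e (by ring : Q * (q * D) = q * (Q * D))]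
    · rw [h.index_eq rfl (m := 2 * (q * D)) (by rw [← e]; ring)]
      omega
  -- the product of two non-conjugate involutions has even order
  have hmaps : ∀ z ∈ C₁ ×ˢ C₂, z.1 * z.2 ∈ (W X).toFinset := by
    intro z hz
    rw [Finset.mem_product] at hz
    rw [Set.mem_toFinset]
    have hnc : ¬ IsConj z.1 z.2 := fun hc => hne
      (((Finset.mem_filter.1 hz.1).2.trans hc).trans (Finset.mem_filter.1 hz.2).2.symm)
    have heven : ¬ Odd (orderOf (z.1 * z.2)) := fun ho =>
      hnc (isConj_of_odd_orderOf_mul (hC1I _ hz.1).2 (hC2I _ hz.2).2 ho)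
    rw [Nat.not_odd_iff_even, even_iff_two_dvd] at heven
    refine ⟨fun e => ?_, heven.trans (orderOf_dvd_ord _)⟩
    rw [e, orderOf_one] at heven; omega
  have hfib : ∀ g ∈ (W X).toFinset,
      2 * ((C₁ ×ˢ C₂).filter fun z => z.1 * z.2 = g).card ≤ Q := by
    intro g hg
    rw [Set.mem_toFinset] at hg
    set F := C₁.filter fun x => x * g ∈ C₂ with hF
    have e1 : ((C₁ ×ˢ C₂).filter fun z => z.1 * z.2 = g).card ≤ F.card := by
      refine Finset.card_le_card_of_injOn Prod.fst ?_ ?_
      · intro z hz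
        simp only [Finset.mem_coe, Finset.mem_filter, Finset.mem_product] at hz
        simp only [Finset.mem_coe, hF, Finset.mem_filter]
        refine ⟨hz.1.1, ?_⟩
        rw [← hz.2, ← mul_assoc, (hC1I _ hz.1.1).2, one_mul]
        exact hz.1.2
      · intro z hz z' hz' e
        simp only [Finset.mem_coe, Finset.mem_filter] at hz hz'
        have hz2 := hz.2
        have : z.2 = z'.2 := mul_left_cancel (a := z.1) (by rw [hz2, e, hz'.2])
        exact Prod.ext e this
    have e2 : 2 * F.card ≤ ord g := by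
      refine le_trans ?_ (ncard_inverters_le g)
      have hd : Disjoint F (F.image fun x => x * g) := by
        rw [Finset.disjoint_left]
        intro x hx hx'
        obtain ⟨y, hy, rfl⟩ := Finset.mem_image.1 hx'
        exact hne ((Finset.mem_filter.1 (Finset.mem_filter.1 hx).1).2.trans
          (Finset.mem_filter.1 (Finset.mem_filter.1 hy).2).2.symm)
      have hsub : (↑(F ∪ F.image fun x => x * g) : Set X) ⊆ inverters g := by
        intro x hx
        rw [Finset.mem_coe, Finset.mem_union] at hx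
        rcases hx with hx | hx
        · obtain ⟨h1, h2⟩ := Finset.mem_filter.1 hx
          exact mem_inverters_of_involutions (hC1I _ h1) (hC2I _ h2)
        · obtain ⟨y, hy, rfl⟩ := Finset.mem_image.1 hx
          obtain ⟨h1, h2⟩ := Finset.mem_filter.1 hy
          have := mem_inverters_of_involutions (hC1I _ h1) (hC2I _ h2)
          show y * g * g * (y * g)⁻¹ = g⁻¹
          rw [show y * g * g * (y * g)⁻¹ = y * g * y⁻¹ by group]
          exact this
      have := Set.ncard_le_ncard hsub (Set.toFinite _)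
      rw [Set.ncard_coe_finset, Finset.card_union_of_disjoint hd,
        Finset.card_image_of_injective _ (mul_left_injective g)] at this
      omega
    have := h.ord_le_Q hg
    omega
  have htot := Finset.card_eq_sum_card_fiberwise (f := fun z : X × X => z.1 * z.2)
    (s := C₁ ×ˢ C₂) (t := (W X).toFinset) (fun z hz => Finset.mem_coe.2 (hmaps z hz))
  have hb : 2 * (C₁ ×ˢ C₂).card ≤ (W X).toFinset.card * Q := by
    rw [htot, Finset.mul_sum]
    exact le_trans (Finset.sum_le_sum hfib) (by rw [Finset.sum_const, smul_eq_mul])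
  rw [Finset.card_product, ← Set.ncard_eq_toFinset_card', h.counts.2] at hb
  have hmul : q * D * (q * D) ≤ C₁.card * C₂.card := Nat.mul_le_mul (hsize u hu) (hsize v hv)
  have hle : 2 * (q * D) ≤ K * Q := by
    have hpos : 0 < q * D := Nat.mul_pos (by have := h.u.one_lt_q; omega) (by have := h.hD; omega)
    have e1 : q * D * (2 * (q * D)) ≤ q * D * (K * Q) := by nlinarith
    exact Nat.le_of_mul_le_mul_left e1 hpos
  rcases h.cases with ⟨e1, e2, e3, -⟩ | ⟨e1, e2, e3, -⟩
  · rw [e1, e2, h.hD, e3] at hle; nlinarith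
  · rw [e1, e2, h.hD] at hle; nlinarith

theorem ord_involution {u : X} (hu : u ∈ I X) : ord u = Q := by
  obtain ⟨T⟩ : Nonempty (Sylow 2 X) := inferInstance
  obtain ⟨z, hz, -, hzQ⟩ := h.exists_central_involution T
  obtain ⟨x, rfl⟩ := isConj_iff.1 (h.isConj_involutions hz hu)
  rw [ord_conj]; exact hzQ

theorem exists_involution : ∃ u : X, u ∈ I X := by
  obtain ⟨T⟩ : Nonempty (Sylow 2 X) := inferInstance
  obtain ⟨z, hz, -⟩ := h.exists_central_involution T
  exact ⟨z, hz⟩

theorem ncard_I : (I X).ncard = q * D := by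
  obtain ⟨u, hu⟩ := h.exists_involution
  have : I X = {x | IsConj u x} := by
    ext x
    refine ⟨fun hx => h.isConj_involutions hu hx, fun hx => ?_⟩
    obtain ⟨y, rfl⟩ := isConj_iff.1 hx
    exact h.I_conj hu y
  rw [this, ClassSize.ncard_setOf_isConj]
  exact h.index_eq (h.ord_involution hu) (by ring)

/-- An involution is determined by its centraliser. -/
theorem eq_of_cent_eq {u v : X} (hu : u ∈ I X) (hv : v ∈ I X) (e : cent u = cent v) : u = v := by
  by_contra hne
  haveI := Fintype.ofFinite X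
  set k := {w ∈ I X | cent w = cent u}.ncard with hk
  set t : Set (Subgroup X) := (fun w => cent w) '' I X with ht
  have hcount : (I X).ncard = t.ncard * k := by
    refine ncard_eq_mul_of_fibers (I X) t _ k (fun w hw => Set.mem_image_of_mem _ hw) ?_
    rintro _ ⟨w, hw, rfl⟩
    obtain ⟨x, rfl⟩ := isConj_iff.1 (h.isConj_involutions hu hw)
    have : {z ∈ I X | cent z = cent (x * u * x⁻¹)} =
        (fun z => x * z * x⁻¹) '' {z ∈ I X | cent z = cent u} := by
      ext z
      constructor
      · rintro ⟨hz, hze⟩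
        refine ⟨x⁻¹ * z * x, ⟨?_, ?_⟩, by simp [mul_assoc]⟩
        · simpa using h.I_conj hz x⁻¹
        · have h1 := congrArg (fun H : Subgroup X => H.map (MulAut.conj x⁻¹).toMonoidHom) hze
          simp only [← cent_conj, inv_inv] at h1
          rw [h1]; congr 1; group
      · rintro ⟨z, ⟨hz, hze⟩, rfl⟩
        exact ⟨h.I_conj hz x, by simp only [cent_conj, hze]⟩
    rw [this, Set.ncard_image_of_injective _ fun a b e => mul_left_cancel (mul_right_cancel e)]
  -- there are at least three involutions with this centraliser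
  have huv : u ∈ cent v := e ▸ self_mem_cent u
  have hw : u * v ∈ I X := by
    refine ⟨fun e' => hne ((eq_inv_of_mul_eq_one_left e').trans (inv_eq_of_I hv)), ?_⟩
    rw [show u * v * (u * v) = u * (v * u) * v by group, ← mem_cent.1 huv,
      show u * (u * v) * v = (u * u) * (v * v) by group, hu.2, hv.2, one_mul]
  have hwc : cent (u * v) = cent u := by
    refine (eq_of_le_of_card_ge (fun x hx => ?_) ?_).symm
    · exact mem_cent.2 ((show Commute x u from mem_cent.1 hx).mul_right
        (show Commute x v from mem_cent.1 (e ▸ hx))).eq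
    · exact (h.ord_involution hw).le.trans (h.ord_involution hu).ge
  have h3 : 3 ≤ k := by
    have hsub : ({u, v, u * v} : Set X) ⊆ {w ∈ I X | cent w = cent u} := by
      rintro w (rfl | rfl | rfl)
      exacts [⟨hu, rfl⟩, ⟨hv, e.symm⟩, ⟨hw, hwc⟩]
    have h1 : ({u, v, u * v} : Set X).ncard = 3 := by
      rw [Set.ncard_eq_three]
      exact ⟨u, v, u * v, hne, fun e' => hv.1 (mul_eq_left.1 e'.symm),
        fun e' => hu.1 (mul_eq_right.1 e'.symm), rfl⟩
    rw [← h1]
    exact Set.ncard_le_ncard hsub (Set.toFinite _)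
  -- every element of `W` lies in one of these centralisers
  have hcover : (W X).ncard ≤ t.ncard * (Q - 1) := by
    have hsub : W X ⊆ ⋃ H ∈ t.toFinset, ((H : Subgroup X) : Set X) \ {1} := by
      intro g hg
      haveI : Fact (Nat.Prime 2) := ⟨Nat.prime_two⟩
      obtain ⟨⟨z, hzc⟩, hz⟩ := exists_prime_orderOf_dvd_card' (G := ↥(cent g)) 2 hg.2
      rw [Subgroup.orderOf_mk] at hz
      simp only [Set.mem_iUnion, Set.mem_toFinset]
      exact ⟨cent z, ⟨z, mem_I_of_orderOf hz, rfl⟩, mem_cent_symm hzc, hg.1⟩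
    refine (Set.ncard_le_ncard hsub (Set.toFinite _)).trans
      ((Finset.set_ncard_biUnion_le _ _).trans ?_)
    rw [Set.ncard_eq_toFinset_card', ← smul_eq_mul, ← Finset.sum_const]
    refine Finset.sum_le_sum fun H hH => ?_
    obtain ⟨w, hw', rfl⟩ := Set.mem_toFinset.1 hH
    rw [Set.ncard_sdiff_singleton_of_mem (one_mem _), ← Nat.card_coe_set_eq]
    exact le_of_eq (congrArg (· - 1) (h.ord_involution hw'))
  rw [h.counts.2, ← h.ncard_I, hcount, mul_assoc] at hcover
  have htpos : 0 < t.ncard := (Set.ncard_pos (Set.toFinite _)).2 ⟨cent u, u, hu, rfl⟩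
  have h4 := Nat.le_of_mul_le_mul_left hcover htpos
  have h5 : 3 * K ≤ k * K := Nat.mul_le_mul_right K h3
  rcases h.cases with ⟨-, e2, e3, e4⟩ | ⟨-, e2, e3, e4⟩ <;> omega

theorem mem_cent_of_mem_normalizer {u m : X} (hu : u ∈ I X)
    (hm : m ∈ normalizer (cent u : Set X)) : m ∈ cent u := by
  have e : cent (m * u * m⁻¹) = cent u := by
    rw [cent_conj]
    ext t
    constructor
    · rintro ⟨t', ht', rfl⟩; exact (Subgroup.mem_normalizer_iff.1 hm t').1 ht'
    · intro ht
      refine ⟨m⁻¹ * t * m, ?_, by simp [mul_assoc]⟩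
      apply (Subgroup.mem_normalizer_iff.1 hm _).2
      simpa [mul_assoc] using ht
  have := h.eq_of_cent_eq (h.I_conj hu m) hu e
  refine mem_cent.2 ?_
  conv_rhs => rw [← this]
  group

/-- An element with centraliser of order `Q` has the centraliser of an involution. -/
theorem exists_involution_of_ord {g : X} (hg1 : g ≠ 1) (hg : ord g = Q) :
    ∃ u ∈ I X, cent g = cent u := by
  haveI : Fact (Nat.Prime 2) := ⟨Nat.prime_two⟩
  have hgW : g ∈ W X := h.mem_W_of_ord hg1 (Or.inl hg)
  by_cases heven : 2 ∣ orderOf g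
  · refine ⟨g ^ (orderOf g / 2), mem_I_of_orderOf ?_, ?_⟩
    · rw [orderOf_pow_orderOf_div (orderOf_pos g).ne' heven]
    · refine eq_of_le_of_card_ge (cent_le_cent_pow g _) ?_
      exact (h.ord_involution (mem_I_of_orderOf (orderOf_pow_orderOf_div (orderOf_pos g).ne' heven))).le.trans hg.ge
  · have hidx : ¬ 2 ∣ (cent g).index := by
      rw [h.index_eq hg (by ring : Q * (q * D) = q * (Q * D))]
      exact Nat.two_dvd_ne_zero.2 (Nat.odd_iff.1 (h.odd_q.mul h.odd_D))
    obtain ⟨T, hT⟩ := exists_sylow_le_of_not_dvd (cent g) hidx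
    obtain ⟨u, hu, hTu, -⟩ := h.exists_central_involution T
    have huT : u ∈ cent g := by
      refine hT ?_
      by_contra hn
      have hp : IsPGroup 2 ↥((zpowers u) ⊔ (T : Subgroup X) : Subgroup X) :=
        IsPGroup.to_sup_of_normal_right' (IsPGroup.of_card (n := 1) (by
          rw [Nat.card_zpowers, pow_one]
          exact orderOf_eq_prime (by rw [pow_two]; exact hu.2) hu.1)) T.2
          (zpowers_le.2 (Subgroup.centralizer_le_normalizer _
            (Subgroup.mem_centralizer_iff.2 fun t ht => mem_cent.1 (hTu ht))))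
      exact hn ((T.3 hp le_sup_right) ▸ (le_sup_left : zpowers u ≤ _) (mem_zpowers u))
    have hcomm : Commute g u := (show Commute u g from mem_cent.1 huT).symm
    have hco : Nat.Coprime (orderOf g) (orderOf u) := by
      rw [show orderOf u = 2 from orderOf_eq_prime (by rw [pow_two]; exact hu.2) hu.1]
      exact (Nat.prime_two.coprime_iff_not_dvd.2 heven).symm
    have he := cent_mul_eq_inf hcomm hco
    have hgu1 : g * u ≠ 1 := fun e => by
      have h1 := (eq_inv_of_mul_eq_one_left e).trans (inv_eq_of_I hu)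
      apply heven
      rw [h1, show orderOf u = 2 from orderOf_eq_prime (by rw [pow_two]; exact hu.2) hu.1]
    have hgQ : ord (g * u) = Q := h.ord_of_sylow_le
      (h.mem_W_of_commute_involution hgu1 hu
        (mem_cent.2 (hcomm.symm.mul_right (Commute.refl u)).eq)) T (he ▸ le_inf hT hTu)
    refine ⟨u, hu, ?_⟩
    have e1 : cent (g * u) = cent g :=
      eq_of_le_of_card_ge (he ▸ inf_le_left) (hg.le.trans hgQ.ge)
    have e2 : cent (g * u) = cent u :=
      eq_of_le_of_card_ge (he ▸ inf_le_right) ((h.ord_involution hu).le.trans hgQ.ge)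
    rw [← e1, e2]

/-- An element with centraliser of order `Q` inverted by anything is an involution. -/
theorem mem_I_of_inverters {g x : X} (hg1 : g ≠ 1) (hg : ord g = Q) (hx : x ∈ inverters g) :
    g ∈ I X := by
  obtain ⟨u, hu, e⟩ := h.exists_involution_of_ord hg1 hg
  refine ⟨hg1, ?_⟩
  have hxm : x ∈ normalizer (cent u : Set X) := by
    rw [Subgroup.mem_normalizer_iff, ← e]
    have hmap : (cent g).map (MulAut.conj x).toMonoidHom = cent g := by
      rw [← cent_conj, show x * g * x⁻¹ = g⁻¹ from hx]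
      refine le_antisymm (cent_le_of_mem_zpowers ?_) (cent_le_of_mem_zpowers ?_)
      · exact ⟨-1, by simp⟩
      · exact ⟨-1, by simp⟩
    intro t
    conv_rhs => rw [← hmap]
    exact ⟨fun ht => ⟨t, ht, rfl⟩, fun ⟨t', ht', e'⟩ => by
      rwa [(MulAut.conj x).injective e'] at ht'⟩
  have hxc := h.mem_cent_of_mem_normalizer hu hxm
  rw [← e] at hxc
  have : g = g⁻¹ := by
    have := (show x * g * x⁻¹ = g⁻¹ from hx)
    rwa [mem_cent.1 hxc, mul_inv_cancel_right] at this
  nth_rewrite 1 [this]
  rw [inv_mul_cancel]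

/-- The double count of commuting involutions: `inv` counts involutions in centralisers. -/
theorem cover_eq {u : X} (hu : u ∈ I X) :
    q * D * (Q - 1) = q * D * ((others u).ncard + 1) +
      ∑ g ∈ (Set.toFinite (W X \ I X)).toFinset, (I X ∩ (cent g : Set X)).ncard := by
  haveI := Fintype.ofFinite X
  have hdc := Finset.sum_card_bipartiteAbove_eq_sum_card_bipartiteBelow
    (fun (v g : X) => g ∈ cent v) (s := (I X).toFinset) (t := (W X).toFinset)
  have hL : ∀ v ∈ (I X).toFinset,
      ((W X).toFinset.bipartiteAbove (fun (v g : X) => g ∈ cent v) v).card = Q - 1 := by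
    intro v hv
    rw [Set.mem_toFinset] at hv
    rw [← h.ord_involution hv, ← Set.ncard_coe_finset, Finset.coe_bipartiteAbove]
    have : {g | g ∈ (W X).toFinset ∧ g ∈ cent v} = (cent v : Set X) \ {1} := by
      ext g
      simp only [Set.mem_toFinset, Set.mem_setOf_eq, Set.mem_sdiff, SetLike.mem_coe,
        Set.mem_singleton_iff]
      exact ⟨fun hg => ⟨hg.2, hg.1.1⟩,
        fun hg => ⟨h.mem_W_of_commute_involution hg.2 hv (mem_cent_symm hg.1), hg.1⟩⟩
    rw [this, Set.ncard_sdiff_singleton_of_mem (one_mem _), ← Nat.card_coe_set_eq]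
    rfl
  have hR : ∀ g ∈ (W X).toFinset, ((I X).toFinset.bipartiteBelow
      (fun (v g : X) => g ∈ cent v) g).card = (I X ∩ (cent g : Set X)).ncard := by
    intro g _
    rw [← Set.ncard_coe_finset, Finset.coe_bipartiteBelow]
    congr 1
    ext v
    simp only [Set.mem_toFinset, Set.mem_setOf_eq, Set.mem_inter_iff, SetLike.mem_coe]
    exact and_congr_right fun _ => ⟨mem_cent_symm, mem_cent_symm⟩
  rw [Finset.sum_congr rfl hL, Finset.sum_congr rfl hR, Finset.sum_const, smul_eq_mul,
    ← Set.ncard_eq_toFinset_card', h.ncard_I] at hdc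
  have hsplit : (W X).toFinset = (I X).toFinset ∪ (Set.toFinite (W X \ I X)).toFinset := by
    ext g
    simp only [Finset.mem_union, Set.mem_toFinset, Set.Finite.mem_toFinset, Set.mem_sdiff]
    exact ⟨fun hg => (em (g ∈ I X)).imp id fun h' => ⟨hg, h'⟩,
      fun hg => hg.elim (fun h' => h.I_subset_W h') And.left⟩
  rw [hdc, hsplit, Finset.sum_union (by
    rw [Finset.disjoint_left]
    intro g hg hg'
    rw [Set.mem_toFinset] at hg
    exact ((Set.Finite.mem_toFinset _).1 hg').2 hg)]
  congr 1
  rw [Finset.sum_const_nat (m := (others u).ncard + 1), ← Set.ncard_eq_toFinset_card', h.ncard_I]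
  intro g hg
  rw [Set.mem_toFinset] at hg
  obtain ⟨x, rfl⟩ := isConj_iff.1 (h.isConj_involutions hu hg)
  have : I X ∩ (cent (x * u * x⁻¹) : Set X) = insert (x * u * x⁻¹) (others (x * u * x⁻¹)) := by
    ext v
    simp only [others, Set.mem_inter_iff, SetLike.mem_coe, Set.mem_insert_iff, Set.mem_setOf_eq]
    constructor
    · rintro ⟨h1, h2⟩
      exact (em (v = x * u * x⁻¹)).imp id fun h' => ⟨h1, h', h2⟩
    · rintro (rfl | ⟨h1, -, h2⟩)
      exacts [⟨hg, self_mem_cent _⟩, ⟨h1, h2⟩]
  rw [this, Set.ncard_insert_of_notMem (fun h' => h'.2.1 rfl) (Set.toFinite _), ncard_others_conj]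

theorem ncard_W_diff_I : (W X \ I X).ncard = q * D * (K - 1) := by
  rw [Set.ncard_sdiff h.I_subset_W (Set.toFinite _), h.counts.2, h.ncard_I, Nat.mul_sub_one]

theorem one_le_inv {g : X} (hg : g ∈ W X) : 1 ≤ (I X ∩ (cent g : Set X)).ncard := by
  haveI : Fact (Nat.Prime 2) := ⟨Nat.prime_two⟩
  obtain ⟨⟨z, hzc⟩, hz⟩ := exists_prime_orderOf_dvd_card' (G := ↥(cent g)) 2 hg.2
  rw [Subgroup.orderOf_mk] at hz
  exact (Set.ncard_pos (Set.toFinite _)).2 ⟨z, mem_I_of_orderOf hz, hzc⟩

theorem others_add_le {u : X} (hu : u ∈ I X) : (others u).ncard + K ≤ Q - 1 := by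
  haveI := Fintype.ofFinite X
  have h1 := h.cover_eq hu
  have h2 : q * D * (K - 1) ≤ ∑ g ∈ (Set.toFinite (W X \ I X)).toFinset, (I X ∩ (cent g : Set X)).ncard := by
    rw [← h.ncard_W_diff_I, Set.ncard_eq_toFinset_card _ (Set.toFinite _), Finset.card_eq_sum_ones]
    exact Finset.sum_le_sum fun g hg => h.one_le_inv ((Set.Finite.mem_toFinset _).1 hg).1
  have h3 : q * D * ((others u).ncard + 1 + (K - 1)) ≤ q * D * (Q - 1) := by rw [mul_add]; omega
  have h4 := Nat.le_of_mul_le_mul_left h3 (Nat.mul_pos (by have := h.u.one_lt_q; omega)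
    (by have := h.hD; omega))
  omega

/-- The number of pairs of involutions with product `g`. -/
def invPairs (g : X) : Set X := {x | x ∈ I X ∧ x * g ∈ I X}

omit h in
theorem ncard_invPairs_le_ord (g : X) : (invPairs g).ncard ≤ ord g :=
  (Set.ncard_le_ncard (fun _ hx => mem_inverters_of_involutions hx.1 hx.2)
    (Set.toFinite _)).trans (ncard_inverters_le g)

theorem ncard_invPairs_of_I {u g : X} (hu : u ∈ I X) (hg : g ∈ I X) :
    (invPairs g).ncard ≤ (others u).ncard := by
  obtain ⟨x₀, rfl⟩ := isConj_iff.1 (h.isConj_involutions hu hg)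
  rw [← ncard_others_conj x₀ u]
  refine Set.ncard_le_ncard (fun x hx => ⟨hx.1, fun e => ?_, ?_⟩) (Set.toFinite _)
  · exact hx.2.1 (by rw [e]; exact hg.2)
  · have := mem_inverters_of_involutions hx.1 hx.2
    rw [inverters, Set.mem_setOf_eq, inv_eq_of_I hg] at this
    exact mem_cent.2 (mul_inv_eq_iff_eq_mul.1 this)

omit h in
theorem card_filter_pairs_le (g : X) :
    (((Set.toFinite (I X)).toFinset ×ˢ (Set.toFinite (I X)).toFinset).filter
      fun z => z.1 * z.2 = g).card ≤ (invPairs g).ncard := by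
  rw [← Set.ncard_coe_finset]
  refine Set.ncard_le_ncard_of_injOn Prod.fst ?_ ?_ (Set.toFinite _)
  · intro z hz
    simp only [Finset.coe_filter, Set.mem_setOf_eq, Finset.mem_product,
      Set.Finite.mem_toFinset] at hz
    refine ⟨hz.1.1, ?_⟩
    rw [← hz.2, ← mul_assoc, hz.1.1.2, one_mul]; exact hz.1.2
  · intro z hz z' hz' e
    simp only [Finset.coe_filter, Set.mem_setOf_eq] at hz hz'
    exact Prod.ext e (mul_left_cancel (a := z.1) (by rw [hz.2, e, hz'.2]))

/-- Counting products of two involutions, when a `p`-element is such a product in at most `c`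
ways. -/
theorem pair_bound {u : X} (hu : u ∈ I X) {c : ℕ}
    (hU : ∀ g ∈ UHyp.U q X, (invPairs g).ncard ≤ c)
    (g₀ : X) (hg₀ : g₀ ∈ W X \ I X) :
    q * D * (q * D) + (if ord g₀ = Q then Q / 2 else 0) ≤
      q * D * (1 + (others u).ncard + Q * a + (K - 1) * (Q / 2)) + 2 * (Q * D) * c := by
  haveI := Fintype.ofFinite X
  set S := (Set.toFinite (I X)).toFinset ×ˢ (Set.toFinite (I X)).toFinset with hS
  let bd : X → ℕ := fun g => (if g = 1 then q * D else 0) +
    (if g ∈ I X then (others u).ncard else 0) + (if g ∈ B D X then D else 0) +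
    (if g ∈ W X \ I X then Q / 2 else 0) + (if g ∈ UHyp.U q X then c else 0)
  have hbd : ∀ g : X, (S.filter fun z => z.1 * z.2 = g).card +
      (if g = g₀ then (if ord g₀ = Q then Q / 2 else 0) else 0) ≤ bd g := by
    intro g
    refine (Nat.add_le_add_right (card_filter_pairs_le g) _).trans ?_
    simp only [bd]
    by_cases h1 : g = 1
    · subst h1
      rw [if_pos rfl, if_neg (fun e : (1 : X) = g₀ => hg₀.1.1 e.symm)]
      have : (invPairs (1 : X)).ncard ≤ q * D := by
        rw [← h.ncard_I]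
        exact Set.ncard_le_ncard (fun x hx => hx.1) (Set.toFinite _)
      omega
    by_cases h2 : g ∈ I X
    · rw [if_pos h2, if_neg (fun e : g = g₀ => hg₀.2 (e ▸ h2))]
      have := h.ncard_invPairs_of_I hu h2
      omega
    rcases h.ord_mem g h1 with e | e | e | e
    · have hne : g ≠ g₀ := fun e' => Nat.two_dvd_ne_zero.2 (Nat.odd_iff.1 h.odd_q)
        (e ▸ (e' ▸ hg₀.1.2 : 2 ∣ ord g))
      rw [if_neg hne, if_pos (show g ∈ UHyp.U q X from ⟨h1, e⟩)]
      have := hU g ⟨h1, e⟩
      omega
    · have hne : g ≠ g₀ := fun e' => Nat.two_dvd_ne_zero.2 (Nat.odd_iff.1 h.odd_D)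
        (e ▸ (e' ▸ hg₀.1.2 : 2 ∣ ord g))
      rw [if_neg hne, if_pos (show g ∈ B D X from ⟨h1, e⟩)]
      have := (ncard_invPairs_le_ord g).trans e.le
      omega
    · have h4 : g ∈ W X \ I X := ⟨h.mem_W_of_ord h1 (Or.inl e), h2⟩
      have : (invPairs g).ncard = 0 := by
        rw [Set.ncard_eq_zero (Set.toFinite _), Set.eq_empty_iff_forall_notMem]
        exact fun x hx => h2 (h.mem_I_of_inverters h1 e (mem_inverters_of_involutions hx.1 hx.2))
      rw [if_pos h4]
      split_ifs <;> omega
    · have h4 : g ∈ W X \ I X := ⟨h.mem_W_of_ord h1 (Or.inr e), h2⟩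
      have h5 : g = g₀ → ord g₀ ≠ Q := by
        rintro rfl e'
        rcases h.cases with ⟨-, e2, -⟩ | ⟨-, e2, -, e4⟩ <;> omega
      have := ncard_invPairs_le_ord g
      rw [if_pos h4]
      by_cases h6 : g = g₀
      · rw [if_pos h6, if_neg (h5 h6)]; omega
      · rw [if_neg h6]; omega
  have htot := Finset.card_eq_sum_card_fiberwise (f := fun z : X × X => z.1 * z.2)
    (s := S) (t := Finset.univ) (fun z _ => Finset.mem_coe.2 (Finset.mem_univ _))
  have hsum := Finset.sum_le_sum fun g (_ : g ∈ (Finset.univ : Finset X)) => hbd g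
  have hcountset : ∀ (s : Set X) [DecidablePred (· ∈ s)] (c : ℕ),
      (∑ g : X, if g ∈ s then c else 0) = s.ncard * c := by
    intro s _ c
    rw [← Finset.sum_filter, Finset.sum_const, smul_eq_mul, ← Set.ncard_coe_finset]
    congr 2
    ext g; simp
  have hcard : S.card = q * D * (q * D) := by
    rw [hS, Finset.card_product, ← Set.ncard_eq_toFinset_card _ _, h.ncard_I]
  simp only [bd, Finset.sum_add_distrib, Finset.sum_ite_eq', Finset.mem_univ, if_true, hcountset,
    ← htot, hcard, h.ncard_I, h.counts.1, h.ncard_W_diff_I, h.card_U_eq] at hsum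
  have e1 : q * D * (1 + (others u).ncard + Q * a + (K - 1) * (Q / 2)) + 2 * (Q * D) * c =
      q * D + q * D * (others u).ncard + q * Q * a * D + q * D * (K - 1) * (Q / 2) +
        Q * D * 2 * c := by ring
  omega

end OHyp

end Cfsg.Agent.CsPSL
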